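import Mathlib
import Cfsg.Agent.Lib.Zsigmondy

/-!
# S2452: prime divisors of `2 ^ f - 1` for the split torus rows (helper675)

* `exists_prime_even` : `f ∉ {0, 1, 2, 3, 4, 6}`: a prime `r ≥ 13` divides `2 ^ f - 1`;
* `exists_prime_seven` : `f ∉ {0, 1, 2, 4}`: a prime `r ≥ 7` divides `2 ^ f - 1`.
-/

set_option autoImplicit false

namespace Cfsg.Agent.H675.TW

theorem exists_prime_even {f : ℕ} (h0 : f ≠ 0) (h1 : f ≠ 1) (h2 : f ≠ 2) (h3 : f ≠ 3) (h4 : f ≠ 4) (h6 : f ≠ 6) :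
    ∃ r : ℕ, r.Prime ∧ 13 ≤ r ∧ r ∣ 2 ^ f - 1 := by
  by_cases h : f < 12
  · have : f = 5 ∨ f = 7 ∨ f = 8 ∨ f = 9 ∨ f = 10 ∨ f = 11 := by omega
    rcases this with rfl | rfl | rfl | rfl | rfl | rfl
    exacts [⟨31, by norm_num, by norm_num, by norm_num⟩, ⟨127, by norm_num, by norm_num, by norm_num⟩,
      ⟨17, by norm_num, by norm_num, by norm_num⟩, ⟨73, by norm_num, by norm_num, by norm_num⟩,
      ⟨31, by norm_num, by norm_num, by norm_num⟩, ⟨23, by norm_num, by norm_num, by norm_num⟩]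
  · obtain ⟨r, hr, e1, e2, -⟩ := Cfsg.Agent.Lib.Zsigmondy.exists_primitive (le_refl 2) (show 2 ≤ f by omega)
      (by omega) (by omega)
    refine ⟨r, hr, ?_, (e1 f).2 dvd_rfl⟩
    have h5 := hr.two_le
    have := Nat.le_of_dvd (by omega) e2
    omega

theorem exists_prime_seven {f : ℕ} (h0 : f ≠ 0) (h1 : f ≠ 1) (h2 : f ≠ 2) (h4 : f ≠ 4) :
    ∃ r : ℕ, r.Prime ∧ 7 ≤ r ∧ r ∣ 2 ^ f - 1 := by
  by_cases h3 : f = 3
  · subst h3
    exact ⟨7, by norm_num, by norm_num, by norm_num⟩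
  by_cases h6 : f = 6
  · subst h6
    exact ⟨7, by norm_num, by norm_num, by norm_num⟩
  obtain ⟨r, hr, h5, h7⟩ := exists_prime_even h0 h1 h2 h3 h4 h6
  exact ⟨r, hr, by omega, h7⟩

/-- the orders `2 ^ f` without a prime `r ≥ 13` dividing `2 ^ f - 1` -/
theorem even_cases {q f : ℕ} (hq : q = 2 ^ f) (h0 : f ≠ 0) :
    (∃ r : ℕ, r.Prime ∧ 13 ≤ r ∧ r ∣ q - 1) ∨ q = 2 ∨ q = 4 ∨ q = 8 ∨ q = 16 ∨ q = 64 := by
  by_cases h1 : f = 1
  · subst h1; right; left; simpa using hq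
  by_cases h2 : f = 2
  · subst h2; right; right; left; simpa using hq
  by_cases h3 : f = 3
  · subst h3; right; right; right; left; simpa using hq
  by_cases h4 : f = 4
  · subst h4; right; right; right; right; left; simpa using hq
  by_cases h6 : f = 6
  · subst h6; right; right; right; right; right; simpa using hq
  left
  rw [hq]
  exact exists_prime_even h0 h1 h2 h3 h4 h6

/-- the orders `2 ^ f` without a prime `r ≥ 7` dividing `2 ^ f - 1` -/
theorem even_cases_seven {q f : ℕ} (hq : q = 2 ^ f) (h0 : f ≠ 0) :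
    (∃ r : ℕ, r.Prime ∧ 7 ≤ r ∧ r ∣ q - 1) ∨ q = 2 ∨ q = 4 ∨ q = 16 := by
  by_cases h1 : f = 1
  · subst h1; right; left; simpa using hq
  by_cases h2 : f = 2
  · subst h2; right; right; left; simpa using hq
  by_cases h4 : f = 4
  · subst h4; right; right; right; simpa using hq
  left
  rw [hq]
  exact exists_prime_seven h0 h1 h2 h4

end Cfsg.Agent.H675.TW
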