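import Cfsg.Agent.H237.FQ.Split
import Cfsg.Agent.H335.TC6.FFour
import Cfsg.Agent.H675.TW.Num

/-!
# S2452, row `F₄(q)`, `q` even, from `q = 4, 8, 16, 64` (helper675)
-/

set_option autoImplicit false

namespace Cfsg.Agent.H675.TW

open Cfsg.Lie
open Cfsg.Agent.H210.TC (Row3)

universe u

/-- **S2452, row `F₄(q)`, `q` even**: the split torus (a prime `r ≥ 13` divides `q - 1`), `q = 2`, and the four groups
`q = 4, 8, 16, 64`. -/
theorem row3_F4_even {K : Type u} [Field K] [Finite K] (h2 : (2 : K) = 0)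
    (hs : Nat.card K = 4 ∨ Nat.card K = 8 ∨ Nat.card K = 16 ∨ Nat.card K = 64 → Row3 ↥(chevF4.group K)) :
    Row3 ↥(chevF4.group K) := by
  have : Fintype K := Fintype.ofFinite K
  obtain ⟨p, hp⟩ := CharP.exists K
  obtain ⟨n, hpp, hc⟩ := FiniteField.card K p
  have hp2 : p = 2 := by
    have h3 : p ∣ 2 := (CharP.cast_eq_zero_iff K p 2).1 (by exact_mod_cast h2)
    exact (Nat.prime_dvd_prime_iff_eq hpp Nat.prime_two).1 h3
  subst hp2
  rw [← Nat.card_eq_fintype_card] at hc
  rcases even_cases hc n.ne_zero with ⟨r, hr, h13, hd⟩ | h | h | h | h | h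
  · exact Cfsg.Agent.H237.FQ.row3_F4_prime hr h13 hd
  · exact Cfsg.Agent.H335.TC6.row3_F4_two h
  · exact hs (Or.inl h)
  · exact hs (Or.inr (Or.inl h))
  · exact hs (Or.inr (Or.inr (Or.inl h)))
  · exact hs (Or.inr (Or.inr (Or.inr h)))

/-- the same with `q` even as a number -/
theorem row3_F4_even' {K : Type u} [Field K] [Fintype K] (h2 : Even (Fintype.card K))
    (hs : Fintype.card K = 4 ∨ Fintype.card K = 8 ∨ Fintype.card K = 16 ∨ Fintype.card K = 64 → Row3 ↥(chevF4.group K)) :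
    Row3 ↥(chevF4.group K) := by
  refine row3_F4_even ?_ fun h => hs (by simpa only [Nat.card_eq_fintype_card] using h)
  have h3 : ringChar K = 2 := (FiniteField.even_card_iff_char_two (F := K)).2 (Nat.even_iff.1 h2)
  have := ringChar.of_eq h3
  exact CharTwo.two_eq_zero

end Cfsg.Agent.H675.TW
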